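import Cfsg.Agent.H386.Dih.Alg
set_option linter.all false

/-!
# The equation `W ^ 2 = γ + μ H` in the dihedral group ring (helper386, for S3572)
-/

set_option autoImplicit false
set_option linter.unusedSectionVars false

namespace Cfsg.Agent.H386.Dih

variable {m : ℕ} [NeZero m]

local notation "𝓐" => AddMonoidAlgebra ℤ (ZMod m)

/-- the sum of all elements -/
noncomputable def J (m : ℕ) [NeZero m] : AddMonoidAlgebra ℤ (ZMod m) := E (fun _ => 1)

theorem coeff_one (k : ZMod m) : (1 : 𝓐).coeff k = if k = 0 then 1 else 0 := by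
  rw [AddMonoidAlgebra.one_def, AddMonoidAlgebra.coeff_single, Finsupp.single_apply]
  simp only [eq_comm]

theorem coeff_intCast_mul (n : ℤ) (x : 𝓐) (k : ZMod m) : ((n : 𝓐) * x).coeff k = n * x.coeff k := by
  rw [← zsmul_eq_mul, AddMonoidAlgebra.coeff_smul, Finsupp.smul_apply, smul_eq_mul]

theorem coeff_intCast (n : ℤ) (k : ZMod m) : ((n : 𝓐)).coeff k = if k = 0 then n else 0 := by
  rw [← mul_one (n : 𝓐), coeff_intCast_mul, coeff_one]
  split_ifs <;> simp

theorem coeff_add' (x y : 𝓐) (k : ZMod m) : (x + y).coeff k = x.coeff k + y.coeff k := by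
  rw [AddMonoidAlgebra.coeff_add, Finsupp.add_apply]

theorem coeff_sub' (x y : 𝓐) (k : ZMod m) : (x - y).coeff k = x.coeff k - y.coeff k := by
  rw [AddMonoidAlgebra.coeff_sub, Finsupp.sub_apply]

theorem coeff_J (k : ZMod m) : (J m).coeff k = 1 := coeff_E _ _

theorem E_mul_J (f : ZMod m → ℤ) : E f * J m = ((∑ i, f i : ℤ) : 𝓐) * J m := by
  refine ext_coeff fun k => ?_
  rw [coeff_intCast_mul, coeff_mul, coeff_J, mul_one]
  exact Finset.sum_congr rfl fun i _ => by rw [coeff_E, coeff_J, mul_one]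

theorem J_mul_J : J m * J m = ((m : ℤ) : 𝓐) * J m := by
  have h := E_mul_J (m := m) (fun _ => 1)
  rw [Finset.sum_const, Finset.card_univ, ZMod.card, nsmul_eq_mul, mul_one] at h
  exact h

theorem cast_mul_J_inj {a b : ℤ} (h : (a : 𝓐) * J m = (b : 𝓐) * J m) : a = b := by
  have := congrArg (fun x => x.coeff 0) h
  simp only [coeff_intCast_mul, coeff_J, mul_one] at this
  exact this

/-- the data of the equation `W ^ 2 = γ + μ H`, `W = α + β t` -/
structure Dat (m : ℕ) [NeZero m] (α β : ZMod m → ℤ) (γ μ : ℤ) : Prop where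
  α01 : ∀ i, α i = 0 ∨ α i = 1
  β01 : ∀ i, β i = 0 ∨ β i = 1
  sym : ∀ i, α (-i) = α i
  one : ∑ i, α i * α (0 - i) + ∑ i, β (-i) * β (0 - i) = γ + μ
  rot : ∀ k : ZMod m, k ≠ 0 → ∑ i, α i * α (k - i) + ∑ i, β (-i) * β (k - i) = μ
  ref : ∀ k : ZMod m, ∑ i, α (-i) * β (k - i) + ∑ i, β i * α (k - i) = μ

variable {α β : ZMod m → ℤ} {γ μ : ℤ}

theorem Dat.sq (D : Dat m α β γ μ) : E α * E α + E (fun i => β (-i)) * E β = (γ : 𝓐) + (μ : 𝓐) * J m := by
  refine ext_coeff fun k => ?_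
  rw [coeff_add', coeff_add', E_mul, E_mul, coeff_E, coeff_E, coeff_intCast_mul, coeff_J, coeff_intCast]
  by_cases hk : k = 0
  · rw [if_pos hk, hk, D.one, mul_one]
  · rw [if_neg hk, D.rot k hk]; ring

theorem Dat.mix (D : Dat m α β γ μ) : 2 * (E α * E β) = (μ : 𝓐) * J m := by
  have h1 : E α * E β + E β * E α = (μ : 𝓐) * J m := by
    refine ext_coeff fun k => ?_
    rw [coeff_add', E_mul, E_mul, coeff_E, coeff_E, coeff_intCast_mul, coeff_J, mul_one, ← D.ref k]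
    congr 1
    exact Finset.sum_congr rfl fun i _ => by rw [D.sym]
  rw [← h1]
  ring

theorem sum_neg (β : ZMod m → ℤ) : ∑ i, β (-i) = ∑ i, β i := Equiv.sum_comp (Equiv.neg (ZMod m)) β

theorem Dat.eq1 (D : Dat m α β γ μ) : 2 * ((∑ i, α i) * ∑ i, β i) = μ * m := by
  have h1 := congrArg (fun x => x * J m) D.mix
  have h3 := E_mul_J α
  have h4 := E_mul_J β
  have h5 := J_mul_J (m := m)
  set q := ∑ i, α i
  set c := ∑ i, β i
  have h6 : ((2 * (q * c) : ℤ) : 𝓐) * J m = ((μ * m : ℤ) : 𝓐) * J m := by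
    push_cast
    push_cast at h1 h3 h4 h5
    linear_combination h1 - (2 * E β) * h3 - 2 * (q : 𝓐) * h4 + (μ : 𝓐) * h5
  exact cast_mul_J_inj h6

theorem Dat.eq2 (D : Dat m α β γ μ) : (∑ i, α i) + ∑ i, β i = γ + μ := by
  rw [← D.one, ← sum_neg β]
  congr 1
  · refine Finset.sum_congr rfl fun i _ => ?_
    rw [zero_sub, D.sym]
    rcases D.α01 i with h | h <;> rw [h] <;> norm_num
  · refine Finset.sum_congr rfl fun i _ => ?_
    rw [zero_sub]
    rcases D.β01 (-i) with h | h <;> rw [h] <;> norm_num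

theorem Dat.eq3 (D : Dat m α β γ μ) : (∑ i, α i) ^ 2 + (∑ i, β i) ^ 2 = γ + μ * m := by
  have h1 := congrArg (fun x => x * J m) D.sq
  have h2 : (E α * E α + E (fun i => β (-i)) * E β) * J m = (((∑ i, α i) ^ 2 + (∑ i, β i) ^ 2 : ℤ) : 𝓐) * J m := by
    have h3 := E_mul_J α
    have h4 := E_mul_J β
    have h5 := E_mul_J (fun i => β (-i))
    rw [sum_neg β] at h5
    push_cast
    push_cast at h3 h4 h5
    linear_combination (E α) * h3 + (∑ i, (α i : 𝓐)) * h3 + E (fun i => β (-i)) * h4 + (∑ i, (β i : 𝓐)) * h5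
  have h3 : ((γ : 𝓐) + (μ : 𝓐) * J m) * J m = ((γ + μ * m : ℤ) : 𝓐) * J m := by
    have h4 := J_mul_J (m := m)
    push_cast
    push_cast at h4
    linear_combination (μ : 𝓐) * h4
  rw [h2, h3] at h1
  exact cast_mul_J_inj h1

/-- `(q - c)² = γ` -/
theorem Dat.eq4 (D : Dat m α β γ μ) : ((∑ i, α i) - ∑ i, β i) ^ 2 = γ := by
  have h1 := D.eq1
  have h3 := D.eq3
  linear_combination h3 - h1

/-- the cubic relation -/
theorem Dat.cube (D : Dat m α β γ μ) :
    2 * (E α) ^ 3 = 2 * (γ : 𝓐) * E α + ((2 * μ * (∑ i, α i) - μ * ∑ i, β i : ℤ) : 𝓐) * J m := by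
  have h1 := D.sq
  have h2 := D.mix
  have h3 := E_mul_J α
  have h5 := E_mul_J (fun i => β (-i))
  rw [sum_neg β] at h5
  push_cast
  push_cast at h3 h5
  linear_combination 2 * (E α) * h1 - E (fun i => β (-i)) * h2 + 2 * (μ : 𝓐) * h3 - (μ : 𝓐) * h5

/-- augmentation of the cubic relation -/
theorem Dat.eq5 (D : Dat m α β γ μ) :
    2 * (∑ i, α i) ^ 3 = 2 * γ * (∑ i, α i) + (2 * μ * (∑ i, α i) - μ * ∑ i, β i) * m := by
  have h1 := D.eq1
  have h4 := D.eq4
  have h3 := D.eq3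
  set q := ∑ i, α i
  set c := ∑ i, β i
  linear_combination 2 * q * h3 - c * h1

/-- positivity -/
theorem self_nonneg {x : 𝓐} (hx : ∀ i, x.coeff (-i) = x.coeff i) : 0 ≤ (x * x).coeff 0 := by
  rw [coeff_mul]
  refine Finset.sum_nonneg fun i _ => ?_
  rw [zero_sub, hx]
  exact mul_self_nonneg _

variable (R : AddSubgroup (ZMod m)) [DecidablePred (· ∈ R)]

/-- the sum of the elements of `R` -/
noncomputable def JR : AddMonoidAlgebra ℤ (ZMod m) := E (fun i => if i ∈ R then 1 else 0)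

theorem sum_ind_R : ∑ i : ZMod m, (if i ∈ R then (1 : ℤ) else 0) = Nat.card R := by
  rw [Finset.sum_boole, Nat.card_eq_fintype_card, Fintype.card_subtype]

theorem JR_mul {f : ZMod m → ℤ} (hf : ∀ i z, z ∈ R → f (i + z) = f i) : JR R * E f = ((Nat.card R : ℤ) : 𝓐) * E f := by
  refine ext_coeff fun k => ?_
  rw [coeff_intCast_mul, JR, E_mul, coeff_E, coeff_E, ← sum_ind_R, Finset.sum_mul]
  refine Finset.sum_congr rfl fun i _ => ?_
  by_cases hi : i ∈ R
  · have := hf (k - i) i hi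
    rw [sub_add_cancel] at this
    rw [this]
  · rw [if_neg hi, zero_mul, zero_mul]

/-- **The inequality.** -/
theorem Dat.ineq (D : Dat m α β γ μ) (hR : ∀ i z, z ∈ R → α (i + z) = α i) (h0 : 0 < ∑ i, α i)
    (hm : ∑ i, α i < m) :
    0 < γ ∧ (∑ i, α i) * (m - ∑ i, α i) * Nat.card R ≤ γ * (m - Nat.card R) := by
  have hq1 := D.eq1
  have hq2 := D.eq2
  have hq3 := D.eq3
  have hq4 := D.eq4
  have hq5 := D.eq5
  have hcube := D.cube
  have hJJ := J_mul_J (m := m)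
  have hQJ := E_mul_J α
  have hRQ := JR_mul R hR
  have hRR : JR R * JR R = ((Nat.card R : ℤ) : 𝓐) * JR R := JR_mul R (fun i z hz => by
    have : i + z ∈ R ↔ i ∈ R := ⟨fun h => by simpa using R.sub_mem h hz, fun h => R.add_mem h hz⟩
    simp only [this])
  have hRJ : JR R * J m = ((Nat.card R : ℤ) : 𝓐) * J m := JR_mul R (fun _ _ _ => rfl)
  have hρ : (0 : ℤ) < Nat.card R := by exact_mod_cast Nat.card_pos
  have hmpos : (0 : ℤ) < m := h0.trans hm
  have hsymα : ∀ i, (E α).coeff (-i) = (E α).coeff i := fun i => by rw [coeff_E, coeff_E, D.sym]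
  have hα2 : (E α * E α).coeff 0 = ∑ i, α i := by
    rw [coeff_mul]
    refine Finset.sum_congr rfl fun i _ => ?_
    rw [zero_sub, hsymα, coeff_E]
    rcases D.α01 i with h | h <;> rw [h] <;> norm_num
  have hsymα2 : ∀ i, (E α * E α).coeff (-i) = (E α * E α).coeff i := fun k => by
    rw [coeff_mul, coeff_mul, ← Equiv.sum_comp (Equiv.neg (ZMod m))]
    refine Finset.sum_congr rfl fun i _ => ?_
    rw [Equiv.neg_apply, hsymα, sub_neg_eq_add, ← hsymα (k - i)]
    congr 2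
    abel
  set q := ∑ i, α i with hq
  set c := ∑ i, β i with hc
  set ρ : ℤ := (Nat.card R : ℤ) with hρd
  have hγ : 0 < γ := by
    rw [← hq4]
    refine lt_of_le_of_ne (sq_nonneg _) (Ne.symm ?_)
    intro h
    have h1 : q = c := by
      have := pow_eq_zero_iff (n := 2) (by norm_num) |>.1 h
      linarith
    rw [h1] at hq1 hq2 hq4
    have h2 : γ = 0 := by rw [← hq4]; ring
    have h3 : μ = 2 * c := by linarith
    rw [h3] at hq1
    have h4 : c * c = c * m := by linarith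
    have h5 : c = m := mul_left_cancel₀ (show c ≠ 0 by rw [← h1]; exact h0.ne') h4
    omega
  refine ⟨hγ, ?_⟩
  -- the element `x`
  set x : 𝓐 := ((m * γ : ℤ) : 𝓐) * JR R - ((γ * ρ : ℤ) : 𝓐) * J m - ((m * ρ : ℤ) : 𝓐) * (E α * E α) +
    ((ρ * q ^ 2 : ℤ) : 𝓐) * J m with hx
  have hJRcoeff : ∀ k, (JR R).coeff k = if k ∈ R then 1 else 0 := fun k => coeff_E _ _
  have hx0 : x.coeff 0 = m * γ - γ * ρ - m * ρ * q + ρ * q ^ 2 := by
    rw [hx]
    simp only [coeff_add', coeff_sub', coeff_intCast_mul, coeff_J, hα2, hJRcoeff, R.zero_mem, if_true]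
    ring
  have hxs : ∀ i, x.coeff (-i) = x.coeff i := by
    intro i
    rw [hx]
    simp only [coeff_add', coeff_sub', coeff_intCast_mul, coeff_J, hsymα2, hJRcoeff, R.neg_mem_iff]
  have hxx : 2 * (x * x) = ((2 * (m * γ * ρ) : ℤ) : 𝓐) * x := by
    rw [hx]
    have hq5' := congrArg (fun z : ℤ => ((z : ℤ) : 𝓐)) hq5
    push_cast
    push_cast at hcube hJJ hQJ hRQ hRR hRJ hq5'
    linear_combination 2 * ((m : 𝓐) * γ) ^ 2 * hRR + 4 * m * γ * (-γ * ρ + ρ * q ^ 2) * hRJ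
      - 4 * m ^ 2 * γ * ρ * E α * hRQ + 2 * (-γ * ρ + ρ * q ^ 2 : 𝓐) ^ 2 * hJJ
      - 4 * m * ρ * (-γ * ρ + ρ * q ^ 2) * (E α + q) * hQJ + m ^ 2 * ρ ^ 2 * E α * hcube
      + m ^ 2 * ρ ^ 2 * (2 * μ * q - μ * c) * hQJ - m * ρ ^ 2 * q * J m * hq5'
  have h1 := self_nonneg hxs
  have h2 := congrArg (fun z => z.coeff 0) hxx
  simp only [coeff_intCast_mul] at h2
  have h3 : (2 * (x * x)).coeff 0 = 2 * (x * x).coeff 0 := by
    have := coeff_intCast_mul 2 (x * x) 0
    push_cast at this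
    exact this
  rw [h3] at h2
  have h4 : 0 ≤ 2 * (m * γ * ρ) * x.coeff 0 := by rw [← h2]; linarith
  have h5 : 0 < 2 * (m * γ * ρ) := by positivity
  have h6 : 0 ≤ x.coeff 0 := nonneg_of_mul_nonneg_right h4 h5
  rw [hx0] at h6
  linarith

end Cfsg.Agent.H386.Dih
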