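import Mathlib
set_option linter.all false

/-!
# Schur rings over dihedral groups (helper386, for S3572)

`s` is an equivalence relation on `DihedralGroup m` (the basic sets), `Fn s f` : the function `f` is constant on the
classes, `conv` the convolution of functions, `SR s` : `s` is a primitive Schur ring.
-/

set_option autoImplicit false
set_option linter.unusedSectionVars false

namespace Cfsg.Agent.H386.Dih

open scoped Pointwise
open DihedralGroup

variable {m : ℕ} [NeZero m]

/-- convolution -/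
def conv (f g : DihedralGroup m → ℤ) : DihedralGroup m → ℤ := fun x => ∑ u, f u * g (u⁻¹ * x)

/-- constant on the classes -/
def Fn {α : Type*} (s : Setoid (DihedralGroup m)) (f : DihedralGroup m → α) : Prop := ∀ x y, s x y → f x = f y

/-- an `S`-set -/
def SS (s : Setoid (DihedralGroup m)) (X : Set (DihedralGroup m)) : Prop := ∀ x y, s x y → x ∈ X → y ∈ X

/-- primitive Schur rings -/
structure SR (s : Setoid (DihedralGroup m)) : Prop where
  one : ∀ x, s x 1 → x = 1
  conv : ∀ f g, Fn s f → Fn s g → Fn s (conv f g)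
  inv : ∀ x y, s x y → s x⁻¹ y⁻¹
  prim : ∀ K : Subgroup (DihedralGroup m), SS s (K : Set (DihedralGroup m)) → K = ⊥ ∨ K = ⊤

/-- the indicator function -/
noncomputable def ind (X : Set (DihedralGroup m)) : DihedralGroup m → ℤ := by
  classical exact fun x => if x ∈ X then 1 else 0

theorem ind_of_mem {X : Set (DihedralGroup m)} {x : DihedralGroup m} (h : x ∈ X) : ind X x = 1 := by
  simp [ind, h]

theorem ind_of_not_mem {X : Set (DihedralGroup m)} {x : DihedralGroup m} (h : x ∉ X) : ind X x = 0 := by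
  simp [ind, h]

theorem ind_nonneg (X : Set (DihedralGroup m)) (x : DihedralGroup m) : 0 ≤ ind X x := by
  by_cases h : x ∈ X
  · rw [ind_of_mem h]; norm_num
  · rw [ind_of_not_mem h]

variable {s : Setoid (DihedralGroup m)}

theorem SS.iff {X : Set (DihedralGroup m)} (h : SS s X) {x y : DihedralGroup m} (hxy : s x y) : x ∈ X ↔ y ∈ X :=
  ⟨h x y hxy, h y x (s.symm hxy)⟩

theorem SS.fn {X : Set (DihedralGroup m)} (h : SS s X) : Fn s (ind X) := by
  intro x y hxy
  by_cases hx : x ∈ X
  · rw [ind_of_mem hx, ind_of_mem ((h.iff hxy).1 hx)]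
  · rw [ind_of_not_mem hx, ind_of_not_mem (fun hy => hx ((h.iff hxy).2 hy))]

theorem Fn.ss {α : Type*} {f : DihedralGroup m → α} (h : Fn s f) (a : α) : SS s {x | f x = a} := by
  intro x y hxy hx
  show f y = a
  rw [← h x y hxy]
  exact hx

theorem Fn.comp {α β : Type*} {f : DihedralGroup m → α} (h : Fn s f) (g : α → β) : Fn s (fun x => g (f x)) :=
  fun x y hxy => congrArg g (h x y hxy)

theorem ss_class (x : DihedralGroup m) : SS s {y | s x y} := fun _ _ hyz hy => s.trans hy hyz

theorem SS.compl {X : Set (DihedralGroup m)} (h : SS s X) : SS s Xᶜ := fun _ _ hxy hx hy => hx ((h.iff hxy).2 hy)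

theorem SS.union {X Y : Set (DihedralGroup m)} (h : SS s X) (h' : SS s Y) : SS s (X ∪ Y) := fun x y hxy hx =>
  hx.imp (h x y hxy) (h' x y hxy)

/-- a coarser Schur ring -/
theorem SR.coarsen (h : SR s) {s' : Setoid (DihedralGroup m)} (hle : ∀ x y, s x y → s' x y)
    (h1 : ∀ x, s' x 1 → x = 1) (hc : ∀ f g, Fn s' f → Fn s' g → Fn s' (Dih.conv f g)) (hi : ∀ x, s' x x⁻¹) :
    SR s' where
  one := h1
  conv := hc
  inv x y hxy := s'.trans (s'.symm (hi x)) (s'.trans hxy (hi y))
  prim K hK := h.prim K fun x y hxy => hK x y (hle x y hxy)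

theorem conv_ind (X Y : Set (DihedralGroup m)) (x : DihedralGroup m) :
    conv (ind X) (ind Y) x ≠ 0 ↔ x ∈ X * Y := by
  classical
  constructor
  · intro h
    obtain ⟨u, -, hu⟩ := Finset.exists_ne_zero_of_sum_ne_zero h
    have h1 : u ∈ X := by
      by_contra hc
      rw [ind_of_not_mem hc, zero_mul] at hu
      exact hu rfl
    have h2 : u⁻¹ * x ∈ Y := by
      by_contra hc
      rw [ind_of_not_mem hc, mul_zero] at hu
      exact hu rfl
    exact ⟨u, h1, _, h2, by group⟩
  · rintro ⟨u, hu, v, hv, rfl⟩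
    refine (Finset.sum_pos' (fun w _ => mul_nonneg (ind_nonneg _ _) (ind_nonneg _ _)) ⟨u, Finset.mem_univ _, ?_⟩).ne'
    rw [inv_mul_cancel_left, ind_of_mem hu, ind_of_mem hv]
    norm_num

theorem SR.mul (h : SR s) {X Y : Set (DihedralGroup m)} (hX : SS s X) (hY : SS s Y) : SS s (X * Y) := by
  intro x y hxy hx
  rw [← conv_ind] at hx ⊢
  rw [← h.conv _ _ hX.fn hY.fn x y hxy]
  exact hx

theorem SR.ss_one (h : SR s) : SS s ({1} : Set (DihedralGroup m)) := by
  intro x y hxy hx
  rw [Set.mem_singleton_iff] at hx ⊢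
  subst hx
  exact h.one y (s.symm hxy)

theorem SR.pow (h : SR s) {X : Set (DihedralGroup m)} (hX : SS s X) (n : ℕ) : SS s (X ^ n) := by
  induction n with
  | zero => rw [pow_zero]; exact h.ss_one
  | succ n ih => rw [pow_succ]; exact h.mul ih hX

/-- the `S`-subgroup generated by an `S`-set -/
theorem SR.closure (h : SR s) {X : Set (DihedralGroup m)} (hX : SS s X) :
    SS s (Subgroup.closure X : Set (DihedralGroup m)) := by
  have key : ∀ x ∈ Submonoid.closure X, ∃ n : ℕ, x ∈ X ^ n := by
    intro x hx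
    induction hx using Submonoid.closure_induction with
    | mem x hx => exact ⟨1, by rwa [pow_one]⟩
    | one => exact ⟨0, by rw [pow_zero]; rfl⟩
    | mul x y _ _ ihx ihy =>
      obtain ⟨a, ha⟩ := ihx
      obtain ⟨b, hb⟩ := ihy
      exact ⟨a + b, by rw [pow_add]; exact Set.mul_mem_mul ha hb⟩
  have hpow : ∀ n : ℕ, X ^ n ⊆ (Subgroup.closure X : Set (DihedralGroup m)) := by
    intro n
    induction n with
    | zero =>
      rw [pow_zero]
      intro x hx
      rw [Set.mem_one] at hx
      rw [hx]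
      exact one_mem _
    | succ n ih =>
      rw [pow_succ]
      rintro _ ⟨a, ha, b, hb, rfl⟩
      exact mul_mem (ih ha) (Subgroup.subset_closure hb)
  intro x y hxy hx
  have hx' : x ∈ (Subgroup.closure X).toSubmonoid := hx
  rw [Subgroup.closure_toSubmonoid_of_finite] at hx'
  obtain ⟨n, hn⟩ := key x hx'
  exact hpow n (h.pow hX n x y hxy hn)

/-- the radical of an `S`-set is an `S`-subgroup -/
theorem SR.rad (h : SR s) {X : Set (DihedralGroup m)} (hX : SS s X) (hne : X.Nonempty) (hu : X ≠ Set.univ)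
    {z : DihedralGroup m} (hz : ∀ x ∈ X, x * z ∈ X) : z = 1 := by
  classical
  let K : Subgroup (DihedralGroup m) :=
    { carrier := {z | ∀ x, x ∈ X → x * z ∈ X}
      one_mem' := fun x hx => by rwa [mul_one]
      mul_mem' := by
        intro a b ha hb x hx
        rw [← mul_assoc]
        exact hb _ (ha _ hx)
      inv_mem' := by
        intro a ha x hx
        have hn : ∀ n : ℕ, x * a ^ n ∈ X := by
          intro n
          induction n with
          | zero => rwa [pow_zero, mul_one]
          | succ n ih => rw [pow_succ, ← mul_assoc]; exact ha _ ih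
        have h1 := hn (orderOf a - 1)
        have h2 : a ^ (orderOf a - 1) = a⁻¹ := by
          rw [eq_inv_iff_mul_eq_one, ← pow_succ, Nat.sub_add_cancel (orderOf_pos a), pow_orderOf_eq_one]
        rwa [h2] at h1 }
  have hinv : SS s X⁻¹ := by
    intro x y hxy hx
    exact hX _ _ (h.inv x y hxy) hx
  have hKS : SS s (K : Set (DihedralGroup m)) := by
    have hval : ∀ z, z ∈ K ↔ Dih.conv (ind X⁻¹) (ind X) z = ∑ u, ind X u := by
      intro z
      have h1 : Dih.conv (ind X⁻¹) (ind X) z = ∑ u, ind X u * ind X (u * z) := by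
        rw [Dih.conv, ← Equiv.sum_comp (Equiv.inv _)]
        refine Finset.sum_congr rfl fun u _ => ?_
        rw [Equiv.inv_apply, inv_inv]
        congr 1
        by_cases hu : u ∈ X
        · rw [ind_of_mem hu, ind_of_mem]
          rwa [Set.mem_inv, inv_inv]
        · rw [ind_of_not_mem hu, ind_of_not_mem]
          rwa [Set.mem_inv, inv_inv]
      rw [h1]
      have h2 : ∀ u ∈ Finset.univ, ind X u * ind X (u * z) ≤ ind X u := by
        intro u _
        by_cases hu : u ∈ X
        · rw [ind_of_mem hu, one_mul]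
          by_cases hv : u * z ∈ X
          · rw [ind_of_mem hv]
          · rw [ind_of_not_mem hv]; norm_num
        · rw [ind_of_not_mem hu, zero_mul]
      rw [Finset.sum_eq_sum_iff_of_le h2]
      constructor
      · intro hz u _
        by_cases hu : u ∈ X
        · rw [ind_of_mem hu, ind_of_mem (hz u hu), one_mul]
        · rw [ind_of_not_mem hu, zero_mul]
      · intro hz u hu
        have := hz u (Finset.mem_univ _)
        rw [ind_of_mem hu, one_mul] at this
        by_contra hc
        rw [ind_of_not_mem hc] at this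
        exact zero_ne_one this
    intro x y hxy hx
    have hx' := (hval x).1 hx
    rw [h.conv _ _ hinv.fn hX.fn x y hxy] at hx'
    exact (hval y).2 hx'
  rcases h.prim K hKS with h1 | h1
  · have : z ∈ K := hz
    rwa [h1, Subgroup.mem_bot] at this
  · exfalso
    apply hu
    obtain ⟨x, hx⟩ := hne
    ext y
    refine ⟨fun _ => trivial, fun _ => ?_⟩
    have h2 : x⁻¹ * y ∈ K := by rw [h1]; trivial
    have h3 := h2 x hx
    rwa [mul_inv_cancel_left] at h3

/-- the rotations -/
def rot (m : ℕ) : Subgroup (DihedralGroup m) where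
  carrier := {x | ∃ i, x = r i}
  one_mem' := ⟨0, one_def⟩
  mul_mem' := by
    rintro _ _ ⟨i, rfl⟩ ⟨j, rfl⟩
    exact ⟨i + j, r_mul_r _ _⟩
  inv_mem' := by
    rintro _ ⟨i, rfl⟩
    exact ⟨-i, inv_r _⟩

theorem sr_not_mem (i : ZMod m) : sr i ∉ rot m := by
  rintro ⟨j, hj⟩
  cases hj

/-- an `S`-set of rotations is trivial -/
theorem SR.sub_rot (h : SR s) {X : Set (DihedralGroup m)} (hX : SS s X) (hr : ∀ x ∈ X, ∃ i, x = r i) :
    ∀ x ∈ X, x = 1 := by
  have h1 : Subgroup.closure X ≤ rot m := (Subgroup.closure_le _).2 hr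
  rcases h.prim _ (h.closure hX) with h2 | h2
  · intro x hx
    have := Subgroup.subset_closure hx
    rwa [h2] at this
  · exfalso
    rw [h2] at h1
    exact sr_not_mem 0 (h1 (Subgroup.mem_top (sr (0 : ZMod m))))

theorem SR.exists_sr (h : SR s) {x : DihedralGroup m} (hx : x ≠ 1) : ∃ i, s x (sr i) := by
  by_contra hc
  push Not at hc
  refine hx (h.sub_rot (ss_class (s := s) x) ?_ x (s.refl x))
  intro y hy
  cases y with
  | r i => exact ⟨i, rfl⟩
  | sr i => exact absurd hy (hc i)

/-- every basic set is symmetric -/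
theorem SR.rel_inv (h : SR s) (x : DihedralGroup m) : s x x⁻¹ := by
  by_cases hx : x = 1
  · subst hx; rw [inv_one]
  obtain ⟨i, hi⟩ := h.exists_sr hx
  have h1 := h.inv _ _ hi
  rw [inv_sr] at h1
  exact s.trans hi (s.symm h1)

theorem SR.exists_r (h : SR s) (hm : 2 ≤ m) {x : DihedralGroup m} (hx : x ≠ 1) : ∃ i, i ≠ 0 ∧ s x (r i) := by
  by_contra hc
  push Not at hc
  have h0 : ∀ y, s x y → ∃ i, y = sr i := by
    intro y hy
    cases y with
    | r i =>
      by_cases hi : i = 0
      · subst hi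
        exact absurd (h.one x (by rw [one_def]; exact hy)) hx
      · exact absurd hy (hc i hi)
    | sr i => exact ⟨i, rfl⟩
  have h1 := h.sub_rot (h.mul (ss_class (s := s) x) (ss_class (s := s) x)) (by
    rintro _ ⟨a, ha, b, hb, rfl⟩
    obtain ⟨i, rfl⟩ := h0 a ha
    obtain ⟨j, rfl⟩ := h0 b hb
    exact ⟨j - i, sr_mul_sr _ _⟩)
  have h2 : ∀ y, s x y → y = x := by
    intro y hy
    have h3 := h1 (y * x⁻¹) ⟨y, hy, x⁻¹, h.rel_inv x, rfl⟩
    exact mul_inv_eq_one.1 h3
  have h3 : SS s ({x} : Set (DihedralGroup m)) := by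
    intro a b hab ha
    rw [Set.mem_singleton_iff] at ha
    subst ha
    exact h2 b hab
  have h4 := h.closure h3
  rcases h.prim _ h4 with h5 | h5
  · have h6 := Subgroup.mem_closure_singleton_self x
    rw [h5] at h6
    exact hx h6
  · obtain ⟨i, hi⟩ := h0 x (s.refl x)
    have h6 : Nat.card (DihedralGroup m) ≤ 2 := by
      rw [← Subgroup.card_top, ← h5, ← Subgroup.zpowers_eq_closure, Nat.card_zpowers, hi, orderOf_sr]
    rw [DihedralGroup.nat_card] at h6
    omega

/-- an `S`-function is determined by its values on the rotations -/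
theorem SR.fn_ext (h : SR s) (hm : 2 ≤ m) {α : Type*} {f g : DihedralGroup m → α} (hf : Fn s f) (hg : Fn s g)
    (hfg : ∀ i, f (r i) = g (r i)) : f = g := by
  funext x
  by_cases hx : x = 1
  · rw [hx, one_def, hfg]
  · obtain ⟨i, -, hi⟩ := h.exists_r hm hx
    rw [hf x _ hi, hg x _ hi, hfg]

theorem sum_dih {M : Type*} [AddCommMonoid M] (F : DihedralGroup m → M) :
    ∑ x, F x = ∑ i, F (r i) + ∑ i, F (sr i) := by
  let e : ZMod m ⊕ ZMod m ≃ DihedralGroup m :=
    { toFun := Sum.elim r sr
      invFun := fun x => match x with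
        | r i => Sum.inl i
        | sr i => Sum.inr i
      left_inv := by rintro (x | x) <;> rfl
      right_inv := by rintro (x | x) <;> rfl }
  rw [← Equiv.sum_comp e, Fintype.sum_sum_type]
  rfl

theorem conv_r (f g : DihedralGroup m → ℤ) (k : ZMod m) :
    conv f g (r k) = ∑ i, f (r i) * g (r (k - i)) + ∑ i, f (sr (-i)) * g (sr (k - i)) := by
  rw [conv, sum_dih]
  congr 1
  · refine Finset.sum_congr rfl fun i _ => ?_
    rw [inv_r, r_mul_r, neg_add_eq_sub]
  · rw [← Equiv.sum_comp (Equiv.neg _)]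
    refine Finset.sum_congr rfl fun i _ => ?_
    rw [Equiv.neg_apply, inv_sr, sr_mul_r, neg_add_eq_sub]

theorem conv_sr (f g : DihedralGroup m → ℤ) (k : ZMod m) :
    conv f g (sr k) = ∑ i, f (r (-i)) * g (sr (k - i)) + ∑ i, f (sr i) * g (r (k - i)) := by
  rw [conv, sum_dih]
  congr 1
  · rw [← Equiv.sum_comp (Equiv.neg _)]
    refine Finset.sum_congr rfl fun i _ => ?_
    rw [Equiv.neg_apply, inv_r, r_mul_sr, neg_neg]

theorem sum_conv (f g : DihedralGroup m → ℤ) : ∑ x, conv f g x = (∑ x, f x) * ∑ x, g x := by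
  simp only [conv]
  rw [Finset.sum_comm, Finset.sum_mul]
  refine Finset.sum_congr rfl fun u _ => ?_
  rw [← Finset.mul_sum]
  congr 1
  exact Equiv.sum_comp (Equiv.mulLeft u⁻¹) g

end Cfsg.Agent.H386.Dih
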