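import Cfsg.Agent.H386.Dih.Plus
set_option linter.all false

/-!
# Schur rings over dihedral groups: the ring `C_p` (helper386, for S3572)
-/

set_option autoImplicit false
set_option linter.unusedSectionVars false

namespace Cfsg.Agent.H386.Dih

open DihedralGroup

variable {m : ℕ} [NeZero m] {s : Setoid (DihedralGroup m)}

/-- reflections differing by an element killed by `p` -/
def cRel (p : ℕ) (x y : DihedralGroup m) : Prop := ∃ i z : ZMod m, p • z = 0 ∧ x = sr i ∧ y = sr (i + z)

theorem conv_sr_inv {f g : DihedralGroup m → ℤ} {z : ZMod m} (hf : ∀ i, f (sr (i + z)) = f (sr i))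
    (hg : ∀ i, g (sr (i + z)) = g (sr i)) (i : ZMod m) : conv f g (sr (i + z)) = conv f g (sr i) := by
  rw [conv_sr, conv_sr]
  congr 1
  · refine Finset.sum_congr rfl fun j _ => ?_
    rw [add_sub_right_comm, hg]
  · rw [← Equiv.sum_comp (Equiv.addRight z)]
    refine Finset.sum_congr rfl fun j _ => ?_
    rw [Equiv.coe_addRight, hf, add_sub_add_right_eq_sub]

theorem conv_sr_inv' {f g : DihedralGroup m → ℤ} {z : ZMod m} (hf : ∀ i, f (r (i + z)) = f (r i))
    (hg : ∀ i, g (r (i + z)) = g (r i)) (i : ZMod m) : conv f g (sr (i + z)) = conv f g (sr i) := by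
  rw [conv_sr, conv_sr]
  congr 1
  · rw [← Equiv.sum_comp (Equiv.addRight z)]
    refine Finset.sum_congr rfl fun j _ => ?_
    rw [Equiv.coe_addRight, add_sub_add_right_eq_sub]
    have h1 := hf (-(j + z))
    rw [← h1, neg_add, neg_add_cancel_right]
  · refine Finset.sum_congr rfl fun j _ => ?_
    rw [add_sub_right_comm, hg]

theorem SR.cring (h : SR s) (p : ℕ) : SR (Dih.gen s (cRel p)) := by
  refine h.gen ?_ ?_
  · rintro _ _ ⟨i, z, -, rfl, rfl⟩
    rw [one_def]
    constructor <;> intro h <;> cases h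
  · rintro f g hf hg _ _ ⟨i, z, hz, rfl, rfl⟩
    have h1 : ∀ {f : DihedralGroup m → ℤ}, Fn (Dih.gen s (cRel p)) f → ∀ i, f (sr (i + z)) = f (sr i) :=
      fun hf i => ((fn_gen.1 hf).2 _ _ ⟨i, z, hz, rfl, rfl⟩).symm
    exact (conv_sr_inv (h1 hf) (h1 hg) i).symm

theorem Rat.gen (hr : Rat s) {ρ : DihedralGroup m → DihedralGroup m → Prop} : Rat (Dih.gen s ρ) :=
  fun i j hij => gen_le (hr i j hij)

/-- products of `S`-functions whose rotation parts are `P`-invariant -/
theorem SR.conv_mem (h : SR s) {p : ℕ} {f g : DihedralGroup m → ℤ} (hf : Fn s f) (hg : Fn s g)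
    (hf' : ∀ i z : ZMod m, p • z = 0 → f (r (i + z)) = f (r i)) (hg' : ∀ i z : ZMod m, p • z = 0 → g (r (i + z)) = g (r i)) :
    Fn (Dih.gen s (cRel p)) (Dih.conv f g) := by
  rw [fn_gen]
  refine ⟨h.conv f g hf hg, ?_⟩
  rintro _ _ ⟨i, z, hz, rfl, rfl⟩
  exact (conv_sr_inv' (fun i => hf' i z hz) (fun i => hg' i z hz) i).symm

theorem r_ne_one {i : ZMod m} (hi : i ≠ 0) : (r i : DihedralGroup m) ≠ 1 := by
  rw [one_def]
  intro h
  exact hi (by injection h)

/-- an `S`-set which is invariant under a rotation -/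
theorem SR.eq_univ (h : SR s) {X : Set (DihedralGroup m)} (hX : SS s X) (hne : X.Nonempty) {z : ZMod m} (hz : z ≠ 0)
    (h1 : ∀ i, r i ∈ X → r (i + z) ∈ X) (h2 : ∀ i, sr i ∈ X → sr (i + z) ∈ X) : X = Set.univ := by
  by_contra hu
  refine r_ne_one hz (h.rad hX hne hu ?_)
  intro x hx
  cases x with
  | r i => rw [r_mul_r]; exact h1 i hx
  | sr i => rw [sr_mul_r]; exact h2 i hx

/-- **The ring `C_p`, `p` odd, is trivial.** -/
theorem SR.cring_trivial (h : SR s) (hr : Rat s) {p : ℕ} [hp : Fact p.Prime] (hp2 : p ≠ 2) (hpm : p ∣ m)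
    (hB : ∀ i z : ZMod m, p • z = 0 → s (sr i) (sr (i + z))) {i : ZMod m} (hi : i ≠ 0) {z : ZMod m} (hz0 : z ≠ 0)
    (hz : p • z = 0) : s (r z) (r i) := by
  -- all `p`-singular rotations are in one class
  have hA : ∀ i j : ZMod m, p ∣ addOrderOf i → p ∣ addOrderOf j → s (r i) (r j) := by
    intro i j hi hj
    obtain ⟨Y, hY1, hY2, hY3⟩ := h.plus hr hp2 hpm (ss_class (s := s) (r i))
    have h1 : Y = Set.univ := h.eq_univ hY1 ⟨r i, (hY3 i hi).2 (s.refl _)⟩ hz0 (fun a ha => (hY2 a z hz).1 ha)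
      (fun a ha => hY1 _ _ (hB a z hz) ha)
    exact (hY3 j hj).1 (by rw [h1]; trivial)
  by_contra hcon
  set T : Set (DihedralGroup m) := {y | s (r i) y} with hT
  have hTs : SS s T := ss_class _
  have hzp : p ∣ addOrderOf z := by rw [order_of_ker hz0 hz]
  have hTr : ∀ j, r j ∈ T → ¬ p ∣ addOrderOf j := fun j hj hd =>
    hcon (s.trans (hA z j hzp hd) (s.symm hj))
  set N : ZMod m → ℤ := fun k => ∑ j, ind T (sr j) * ind T (sr (j + k)) with hN
  have hconv : ∀ k, p ∣ addOrderOf k → Dih.conv (ind T) (ind T) (r k) = N k := by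
    intro k hk
    rw [conv_r, hN]
    have h1 : ∑ j, ind T (r j) * ind T (r (k - j)) = 0 := by
      refine Finset.sum_eq_zero fun j _ => ?_
      by_cases h2 : r j ∈ T
      · by_cases h3 : r (k - j) ∈ T
        · exfalso
          have h4 := hTr j h2
          have h5 := hTr _ h3
          have h6 : addOrderOf k ∣ addOrderOf j * addOrderOf (k - j) := by
            have := AddCommute.addOrderOf_add_dvd_mul_addOrderOf (AddCommute.all j (k - j))
            rwa [add_sub_cancel] at this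
          exact (hp.out.dvd_mul.1 (hk.trans h6)).elim h4 h5
        · rw [ind_of_not_mem h3, mul_zero]
      · rw [ind_of_not_mem h2, zero_mul]
    rw [h1, zero_add, ← Equiv.sum_comp (Equiv.neg (ZMod m))]
    refine Finset.sum_congr rfl fun j _ => ?_
    rw [Equiv.neg_apply, neg_neg, sub_neg_eq_add, add_comm k j]
  have hNz : ∀ k, N (k + z) = N k := by
    intro k
    refine Finset.sum_congr rfl fun j _ => ?_
    rw [← add_assoc, hTs.fn _ _ (hB (j + k) z hz)]
  have hN0 : N 0 = ∑ j, ind T (sr j) := by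
    refine Finset.sum_congr rfl fun j _ => ?_
    rw [add_zero]
    by_cases h1 : sr j ∈ T
    · rw [ind_of_mem h1, one_mul]
    · rw [ind_of_not_mem h1, zero_mul]
  have hNall : ∀ k, N k = ∑ j, ind T (sr j) := by
    have h1 : ∀ k, p ∣ addOrderOf k → N k = ∑ j, ind T (sr j) := by
      intro k hk
      rw [← hconv k hk, h.conv _ _ hTs.fn hTs.fn _ _ (hA k z hk hzp), hconv z hzp, ← hN0, ← hNz 0, zero_add]
    intro k
    by_cases hk : p ∣ addOrderOf k
    · exact h1 k hk
    · rw [← hNz k]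
      refine h1 _ ?_
      rw [order_add_ker hk hz0 hz]
      exact dvd_mul_left _ _
  have hall : ∀ j k, sr j ∈ T → sr (j + k) ∈ T := by
    intro j k hj
    have h1 : ∀ j ∈ (Finset.univ : Finset (ZMod m)), ind T (sr j) * ind T (sr (j + k)) ≤ ind T (sr j) := by
      intro j _
      by_cases h2 : sr j ∈ T
      · rw [ind_of_mem h2, one_mul]
        by_cases h3 : sr (j + k) ∈ T
        · rw [ind_of_mem h3]
        · rw [ind_of_not_mem h3]; norm_num
      · rw [ind_of_not_mem h2, zero_mul]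
    have h2 := (Finset.sum_eq_sum_iff_of_le h1).1 (hNall k) j (Finset.mem_univ _)
    rw [ind_of_mem hj, one_mul] at h2
    by_contra hc
    rw [ind_of_not_mem hc] at h2
    exact zero_ne_one h2
  obtain ⟨j, hj⟩ := h.exists_sr (r_ne_one hi)
  obtain ⟨k, hk⟩ := h.exists_sr (r_ne_one hz0)
  have h1 := hall j (k - j) hj
  rw [add_sub_cancel] at h1
  exact hcon (s.trans hk (s.symm h1))

end Cfsg.Agent.H386.Dih
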