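import Cfsg.Agent.H386.Dih.AlgE
set_option linter.all false

/-!
# The equation `W ^ 2 = γ + μ H` in the dihedral group ring: the numerical part (helper386, for S3572)
-/

set_option autoImplicit false
set_option linter.unusedSectionVars false

namespace Cfsg.Agent.H386.Dih

variable {m : ℕ} [NeZero m]

local notation "𝓐" => AddMonoidAlgebra ℤ (ZMod m)

variable {α β : ZMod m → ℤ} {γ μ : ℤ}

section
variable (R : AddSubgroup (ZMod m)) [DecidablePred (· ∈ R)]

theorem card_le_sum (h01 : ∀ i, α i = 0 ∨ α i = 1) (hR : ∀ i z, z ∈ R → α (i + z) = α i) (h0 : 0 < ∑ i, α i) :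
    (Nat.card R : ℤ) ≤ ∑ i, α i := by
  obtain ⟨i, -, hi⟩ := Finset.exists_ne_zero_of_sum_ne_zero h0.ne'
  have hi1 : α i = 1 := (h01 i).resolve_left hi
  rw [← sum_ind_R R, ← Equiv.sum_comp (Equiv.addLeft i) α]
  refine Finset.sum_le_sum fun j _ => ?_
  rw [Equiv.coe_addLeft]
  by_cases hj : j ∈ R
  · rw [if_pos hj, hR i j hj, hi1]
  · rw [if_neg hj]
    rcases h01 (i + j) with h | h <;> rw [h]
    norm_num

theorem card_le_sum' (h01 : ∀ i, α i = 0 ∨ α i = 1) (hR : ∀ i z, z ∈ R → α (i + z) = α i) (hm : ∑ i, α i < m) :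
    (Nat.card R : ℤ) ≤ m - ∑ i, α i := by
  have h1 : ∑ i, (1 - α i) = m - ∑ i, α i := by
    rw [Finset.sum_sub_distrib, Finset.sum_const, Finset.card_univ, ZMod.card, nsmul_eq_mul, mul_one]
  rw [← h1]
  refine card_le_sum R (fun i => ?_) (fun i z hz => by rw [hR i z hz]) (by rw [h1]; linarith)
  rcases h01 i with h | h <;> rw [h] <;> norm_num

theorem num_odd {q c γ μ m ρ : ℤ} (h1 : 2 * (q * c) = μ * m) (h2 : q + c = γ + μ) (h3 : (q - c) ^ 2 = γ)
    (hρ : 3 ≤ ρ) (hq : ρ ≤ q) (hq' : ρ ≤ m - q) (hγ : 0 < γ) (h : q * (m - q) * ρ ≤ γ * (m - ρ)) : False := by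
  obtain ⟨δ, hδ⟩ : ∃ δ, c = q + δ := ⟨c - q, by ring⟩
  subst hδ
  have hγ' : γ = δ ^ 2 := by rw [← h3]; ring
  subst hγ'
  have hE : 2 * (q * (m - q)) = m * δ ^ 2 - δ * (m - 2 * q) := by linear_combination m * h2 - h1
  have h4 : 3 * (q * (m - q)) ≤ δ ^ 2 * (m - 3) := by
    have h5 : 0 ≤ q * (m - q) := mul_nonneg (by linarith) (by linarith)
    nlinarith
  have hm : 0 < m := by linarith
  have hq0 : 0 < q := by linarith
  have hq6 : 3 * (m - 3) ≤ q * (m - q) := by nlinarith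
  have key : m * δ ^ 2 - 3 * (δ * (m - 2 * q)) + 6 * δ ^ 2 ≤ 0 := by linarith
  rcases lt_trichotomy δ 0 with hd | hd | hd
  · obtain ⟨e, he⟩ : ∃ e, δ = -e := ⟨-δ, by ring⟩
    subst he
    have he0 : 0 < e := by linarith
    rcases Int.lt_or_le e 3 with h5 | h5
    · interval_cases e
      · nlinarith
      · nlinarith
    · have a1 : -(e * m) ≤ e * (m - 2 * q) := by nlinarith
      have a2 : 3 * (e * m) ≤ e ^ 2 * m := by
        have : 0 ≤ e * m * (e - 3) := mul_nonneg (mul_nonneg he0.le hm.le) (by linarith)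
        linarith [this, (by ring : e * m * (e - 3) = e ^ 2 * m - 3 * (e * m))]
      have a3 : 0 < e ^ 2 := by positivity
      have a4 : (-e) ^ 2 = e ^ 2 := by ring
      rw [a4] at key
      linarith [(by ring : m * e ^ 2 = e ^ 2 * m), (by ring : -e * (m - 2 * q) = -(e * (m - 2 * q)))]
  · subst hd
    simp at hγ
  · rcases Int.lt_or_le δ 3 with h5 | h5
    · interval_cases δ
      · nlinarith
      · nlinarith
    · have a1 : δ * (m - 2 * q) ≤ δ * m := by nlinarith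
      have a2 : 3 * (δ * m) ≤ δ ^ 2 * m := by
        have : 0 ≤ δ * m * (δ - 3) := mul_nonneg (mul_nonneg hd.le hm.le) (by linarith)
        linarith [this, (by ring : δ * m * (δ - 3) = δ ^ 2 * m - 3 * (δ * m))]
      have a3 : 0 < δ ^ 2 := by positivity
      linarith [(by ring : m * δ ^ 2 = δ ^ 2 * m)]

/-- **No solution with an odd radical.** -/
theorem Dat.odd (D : Dat m α β γ μ) (hR : ∀ i z, z ∈ R → α (i + z) = α i) (h3 : 3 ≤ Nat.card R)
    (h0 : 0 < ∑ i, α i) (hm : ∑ i, α i < m) : False := by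
  obtain ⟨h1, h2⟩ := D.ineq R hR h0 hm
  exact num_odd D.eq1 D.eq2 D.eq4 (by exact_mod_cast h3) (card_le_sum R D.α01 hR h0) (card_le_sum' R D.α01 hR hm) h1 h2

theorem Dat.gamma (D : Dat m α β γ μ) (hR : ∀ i z, z ∈ R → α (i + z) = α i) {y : ZMod m} (hy : y ∉ R)
    (hy' : ∀ i, α i - α (i - y) = (if i ∈ R then 1 else 0) - (if i - y ∈ R then 1 else 0)) :
    γ = (Nat.card R : ℤ) ^ 2 := by
  set Z : 𝓐 := 1 - AddMonoidAlgebra.single y 1 with hZ
  have hmul : ∀ (x : 𝓐) (k : ZMod m), (Z * x).coeff k = x.coeff k - x.coeff (k - y) := by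
    intro x k
    rw [hZ, sub_mul, one_mul, coeff_sub', AddMonoidAlgebra.coeff_single_mul_apply, one_mul, neg_add_eq_sub]
  have hZJ : Z * J m = 0 := by
    refine ext_coeff fun k => ?_
    rw [hmul, coeff_J, coeff_J, sub_self]
    rfl
  have hZA : Z * E α = Z * JR R := by
    refine ext_coeff fun k => ?_
    rw [hmul, hmul, coeff_E, coeff_E, JR, coeff_E, coeff_E, hy']
  have hRQ := JR_mul R hR
  have hcube := D.cube
  set q := ∑ i, α i with hq
  set c := ∑ i, β i with hc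
  set ρ : ℤ := (Nat.card R : ℤ) with hρd
  have h1 : ((2 * (ρ ^ 2 - γ) : ℤ) : 𝓐) * (Z * JR R) = 0 := by
    push_cast
    push_cast at hcube hRQ
    linear_combination Z * hcube + 2 * γ * hZA + (2 * μ * q - μ * c : 𝓐) * hZJ - 2 * ((E α) ^ 2 * hZA + Z * E α * hRQ
      + ρ * E α * hZA + ρ * Z * hRQ + ρ ^ 2 * hZA)
  have h2 := congrArg (fun x => x.coeff 0) h1
  simp only [coeff_intCast_mul, hmul, JR, coeff_E, R.zero_mem, if_true, zero_sub, R.neg_mem_iff, hy, if_false] at h2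
  have h3 : (0 : 𝓐).coeff 0 = 0 := rfl
  rw [h3] at h2
  linarith

theorem num_two {q c γ μ m ρ : ℤ} (h1 : 2 * (q * c) = μ * m) (h2 : q + c = γ + μ) (h3 : (q - c) ^ 2 = γ)
    (hρ : 2 ≤ ρ) (hq : ρ ≤ q) (hq' : ρ ≤ m - q) (hγ : γ = ρ ^ 2) (h : q * (m - q) * ρ ≤ γ * (m - ρ)) :
    m = 8 ∧ γ = 4 ∧ c = 4 ∧ μ = q := by
  subst hγ
  obtain ⟨δ, hδ⟩ : ∃ δ, c = q + δ := ⟨c - q, by ring⟩
  subst hδ
  have hδ2 : δ ^ 2 = ρ ^ 2 := by rw [← h3]; ring
  have hE : 2 * (q * (m - q)) = m * ρ ^ 2 - δ * (m - 2 * q) := by linear_combination m * h2 - h1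
  have h4 : q * (m - q) ≤ ρ * (m - ρ) := by
    have : (q * (m - q)) * ρ ≤ (ρ * (m - ρ)) * ρ := by nlinarith
    exact le_of_mul_le_mul_right this (by linarith)
  have h5 : (q - ρ) * (m - q - ρ) = 0 := by
    have h6 : 0 ≤ (q - ρ) * (m - q - ρ) := mul_nonneg (by linarith) (by linarith)
    nlinarith
  have h6 : δ = ρ ∨ δ = -ρ := sq_eq_sq_iff_eq_or_eq_neg.1 hδ2
  have h7 : δ * (m - 2 * q) = ρ * (m - 2 * ρ) ∨ δ * (m - 2 * q) = -(ρ * (m - 2 * ρ)) := by
    rcases mul_eq_zero.1 h5 with h5 | h5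
    · have : q = ρ := by linarith
      subst this
      rcases h6 with h6 | h6 <;> rw [h6]
      · left; ring
      · right; ring
    · have : q = m - ρ := by linarith
      subst this
      rcases h6 with h6 | h6 <;> rw [h6]
      · right; ring
      · left; ring
  have hq3 : q * (m - q) = ρ * (m - ρ) := by linear_combination h5
  have hρ0 : ρ ≠ 0 := by linarith
  rcases h7 with h7 | h7
  · rw [h7, hq3] at hE
    have h8 : m * (3 - ρ) = 4 * ρ := by
      have : ρ * (m * (3 - ρ)) = ρ * (4 * ρ) := by linear_combination hE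
      exact mul_left_cancel₀ hρ0 this
    have h9 : ρ = 2 := by
      by_contra hc
      have h10 : 3 ≤ ρ := by omega
      have h11 : 0 < m := by linarith
      nlinarith
    subst h9
    have hm : m = 8 := by linarith
    subst hm
    have h10 : δ * (8 - 2 * q) = 8 := by rw [h7]; norm_num
    refine ⟨rfl, by norm_num, ?_, ?_⟩
    · rcases h6 with h6 | h6 <;> rw [h6] at h10 ⊢ <;> omega
    · rcases h6 with h6 | h6 <;> rw [h6] at h10 h2 <;> omega
  · exfalso
    rw [h7, hq3] at hE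
    have h8 : m = m * ρ := by
      have : ρ * m = ρ * (m * ρ) := by linear_combination hE
      exact mul_left_cancel₀ hρ0 this
    nlinarith

theorem Dat.two (D : Dat m α β γ μ) (hR : ∀ i z, z ∈ R → α (i + z) = α i) (h2 : 2 ≤ Nat.card R)
    (h0 : 0 < ∑ i, α i) (hm : ∑ i, α i < m) {y : ZMod m} (hy : y ∉ R)
    (hy' : ∀ i, α i - α (i - y) = (if i ∈ R then 1 else 0) - (if i - y ∈ R then 1 else 0)) :
    m = 8 ∧ γ = 4 ∧ ∑ i, β i = 4 ∧ μ = ∑ i, α i := by
  obtain ⟨h1, h3⟩ := D.ineq R hR h0 hm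
  have h4 := num_two D.eq1 D.eq2 D.eq4 (by exact_mod_cast h2) (card_le_sum R D.α01 hR h0)
    (card_le_sum' R D.α01 hR hm) (D.gamma R hR hy hy') h3
  exact ⟨by exact_mod_cast h4.1, h4.2⟩

end

theorem eight_bool : ∀ b : ZMod 8 → Bool,
    (∑ i : ZMod 8, (if b i then (1 : ℤ) else 0)) = 4 →
    (∑ i : ZMod 8, (if b (-i) then (1 : ℤ) else 0) * (if b (4 - i) then (1 : ℤ) else 0)) = 0 →
    (∑ i : ZMod 8, (if b (-i) then (1 : ℤ) else 0) * (if b (1 - i) then (1 : ℤ) else 0)) =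
      (∑ i : ZMod 8, (if b (-i) then (1 : ℤ) else 0) * (if b (5 - i) then (1 : ℤ) else 0)) → False := by
  decide +kernel

theorem no_eight {β : ZMod 8 → ℤ} (h01 : ∀ i, β i = 0 ∨ β i = 1) (h4 : ∑ i, β i = 4)
    (h5 : ∑ i, β (-i) * β (4 - i) = 0) (h6 : ∑ i, β (-i) * β (1 - i) = ∑ i, β (-i) * β (5 - i)) : False := by
  classical
  have hβ : ∀ i, (if (decide (β i = 1)) = true then (1 : ℤ) else 0) = β i := by
    intro i
    rcases h01 i with h | h <;> rw [h] <;> norm_num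
  refine eight_bool (fun i => decide (β i = 1)) ?_ ?_ ?_
  · simp only [hβ]; exact h4
  · simp only [hβ]; exact h5
  · simp only [hβ]; exact h6

/-- **No solution with an even radical.** -/
theorem Dat.even (D : Dat m α β γ μ) (R : AddSubgroup (ZMod m)) (hR : ∀ i z, z ∈ R → α (i + z) = α i)
    (h2 : ∀ z : ZMod m, 2 • z = 0 → z ∈ R) (h2m : 2 ∣ m)
    (h0 : 0 < ∑ i, α i) (hm : ∑ i, α i < m) {y : ZMod m} (hy : y ∉ R)
    (hy' : ∀ i, α i - α (i - y) = by classical exact (if i ∈ R then 1 else 0) - (if i - y ∈ R then 1 else 0)) : False := by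
  classical
  have hcard : 2 ≤ Nat.card R := by
    by_contra hc
    have h3 : Nat.card R = 1 := by
      have := Nat.card_pos (α := R)
      omega
    have h4 : R = ⊥ := AddSubgroup.card_eq_one.1 h3
    obtain ⟨k, hk⟩ := h2m
    have h5 : ((k : ℕ) : ZMod m) ∈ R := h2 _ (by
      rw [nsmul_eq_mul, ← Nat.cast_mul, ← hk, ZMod.natCast_self])
    rw [h4, AddSubgroup.mem_bot, ZMod.natCast_eq_zero_iff] at h5
    have h6 := Nat.le_of_dvd (Nat.pos_of_ne_zero (fun h => by
      rw [h, mul_zero] at hk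
      exact NeZero.ne m hk)) h5
    have h7 := Nat.pos_of_ne_zero (NeZero.ne m)
    omega
  obtain ⟨rfl, hγ, hβ, hμ⟩ := D.two R hR hcard h0 hm hy (by
    intro i
    rw [hy' i])
  have h4R : (4 : ZMod 8) ∈ R := h2 4 (by decide)
  have h4 : ∀ i, α (4 - i) = α i := fun i => by
    rw [← D.sym i, ← hR (-i) 4 h4R]
    congr 1
    ring
  have h5 : ∀ i, α (5 - i) = α (1 - i) := fun i => by
    rw [← hR (1 - i) 4 h4R]
    congr 1
    ring
  have h6 := D.rot 4 (by decide)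
  have h7 := D.rot 1 (by decide)
  have h8 := D.rot 5 (by decide)
  have h9 : ∑ i, α i * α (4 - i) = ∑ i, α i := by
    refine Finset.sum_congr rfl fun i _ => ?_
    rw [h4]
    rcases D.α01 i with h | h <;> rw [h] <;> norm_num
  rw [h9, hμ] at h6
  have h10 : ∑ i, α i * α (5 - i) = ∑ i, α i * α (1 - i) := Finset.sum_congr rfl fun i _ => by rw [h5]
  rw [h10, ← h7] at h8
  exact no_eight D.β01 hβ (by linarith) (by linarith)

end Cfsg.Agent.H386.Dih
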