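import Cfsg.Agent.H386.Dih.Hull
set_option linter.all false

/-!
# Schur rings over dihedral groups: the Frobenius rule for a prime `p` dividing `m` (helper386, for S3572)
-/

set_option autoImplicit false
set_option linter.unusedSectionVars false

namespace Cfsg.Agent.H386.Dih

open DihedralGroup

variable {m : ℕ} [NeZero m] {s : Setoid (DihedralGroup m)}

/-- the elements with `p z = 0` -/
def ker (m : ℕ) [NeZero m] (p : ℕ) : Finset (ZMod m) := Finset.univ.filter (fun z : ZMod m => p • z = 0)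

theorem mem_ker {p : ℕ} {z : ZMod m} : z ∈ ker m p ↔ p • z = 0 := by
  rw [ker, Finset.mem_filter]
  exact ⟨fun h => h.2, fun h => ⟨Finset.mem_univ _, h⟩⟩

theorem card_ker {p : ℕ} (hpm : p ∣ m) : (ker m p).card = p := by
  have h := IsAddCyclic.card_nsmulAddMonoidHom_ker (ZMod m) p
  rw [Nat.card_zmod, Nat.gcd_eq_right hpm] at h
  exact (Nat.subtype_card (ker m p) (fun x => by
    rw [mem_ker, AddMonoidHom.mem_ker, nsmulAddMonoidHom_apply])).symm.trans h

theorem exists_ker {p : ℕ} (hp : 1 < p) (hpm : p ∣ m) : ∃ z : ZMod m, z ≠ 0 ∧ p • z = 0 := by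
  have h : 1 < (ker m p).card := by rw [card_ker hpm]; exact hp
  obtain ⟨z, hz, h0⟩ := Finset.exists_mem_ne h 0
  exact ⟨z, h0, mem_ker.1 hz⟩

theorem order_of_ker {p : ℕ} [hp : Fact p.Prime] {z : ZMod m} (hz : z ≠ 0) (h : p • z = 0) : addOrderOf z = p :=
  addOrderOf_eq_prime h hz

/-- the fibres of the multiplication by `p` -/
theorem fiber_eq (p : ℕ) (j : ZMod m) :
    Finset.univ.filter (fun k : ZMod m => p • k = p • j) = (ker m p).image (fun z => j + z) := by
  ext k
  rw [Finset.mem_filter, Finset.mem_image]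
  constructor
  · rintro ⟨-, hk⟩
    refine ⟨k - j, ?_, by abel⟩
    rw [mem_ker, smul_sub, hk, sub_self]
  · rintro ⟨z, hz, rfl⟩
    refine ⟨Finset.mem_univ _, ?_⟩
    rw [smul_add, mem_ker.1 hz, add_zero]

theorem sum_fiber_ker (p : ℕ) (j : ZMod m) {M : Type*} [AddCommMonoid M] (F : ZMod m → M) :
    ∑ k ∈ Finset.univ.filter (fun k : ZMod m => p • k = p • j), F k = ∑ z ∈ ker m p, F (j + z) := by
  rw [fiber_eq, Finset.sum_image]
  intro a _ b _ h
  exact add_left_cancel h

theorem order_add_ker {p : ℕ} [hp : Fact p.Prime] {i z : ZMod m} (hi : ¬ p ∣ addOrderOf i) (hz : z ≠ 0)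
    (h : p • z = 0) : addOrderOf (i + z) = addOrderOf i * p := by
  rw [AddCommute.addOrderOf_add_eq_mul_addOrderOf_of_coprime (AddCommute.all i z), order_of_ker hz h]
  rw [order_of_ker hz h]
  exact ((Nat.Prime.coprime_iff_not_dvd hp.out).2 hi).symm

theorem order_add_ker_dvd {p : ℕ} {i z : ZMod m} (hi : p ∣ addOrderOf i) (h : p • z = 0) :
    addOrderOf (i + z) ∣ addOrderOf i := by
  rw [addOrderOf_dvd_iff_nsmul_eq_zero, smul_add, addOrderOf_nsmul_eq_zero, zero_add]
  obtain ⟨c, hc⟩ := hi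
  rw [hc, mul_comm, mul_smul, h, smul_zero]

theorem order_add_ker_eq {p : ℕ} {i z : ZMod m} (hi : p ∣ addOrderOf i) (h : p • z = 0)
    (hi' : p ∣ addOrderOf (i + z)) : addOrderOf (i + z) = addOrderOf i := by
  refine Nat.dvd_antisymm (order_add_ker_dvd hi h) ?_
  have h1 := order_add_ker_dvd (i := i + z) (z := -z) hi' (by rw [smul_neg, h, neg_zero])
  rwa [add_neg_cancel_right] at h1

/-- **The Frobenius rule.** -/
theorem SR.plus (h : SR s) (hr : Rat s) {p : ℕ} [hp : Fact p.Prime] (hp2 : p ≠ 2) (hpm : p ∣ m)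
    {X : Set (DihedralGroup m)} (hX : SS s X) :
    ∃ Y, SS s Y ∧ (∀ i z : ZMod m, p • z = 0 → (r i ∈ Y ↔ r (i + z) ∈ Y)) ∧
      ∀ i : ZMod m, p ∣ addOrderOf i → (r i ∈ Y ↔ r i ∈ X) := by
  classical
  obtain ⟨g, hg1, hg2, -⟩ := h.frob p hp2 hX.fn
  have hXr : ∀ i j : ZMod m, addOrderOf i = addOrderOf j → ind X (r i) = ind X (r j) := fun i j hij =>
    hX.fn _ _ (hr i j hij)
  set V : DihedralGroup m → ZMod p := fun x => ((ind X x : ℤ) : ZMod p) - ((g x : ℤ) : ZMod p) with hV
  have hVfn : Fn s V := fun x y hxy => by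
    show _ - _ = _ - _
    rw [hX.fn x y hxy, hg1 x y hxy]
  -- `p`-singular elements
  have hVa : ∀ i : ZMod m, p ∣ addOrderOf i → V (r i) = ((ind X (r i) : ℤ) : ZMod p) := by
    intro i hi
    have h1 : ((g (r i) : ℤ) : ZMod p) = 0 := by
      rw [hg2]
      by_cases hne : ∃ j : ZMod m, p • j = i
      · obtain ⟨j, rfl⟩ := hne
        rw [sum_fiber_ker]
        have hj : p ∣ addOrderOf j := hi.trans (addOrderOf_smul_dvd p)
        have h2 : ∀ z ∈ ker m p, ((ind X (r (j + z)) : ℤ) : ZMod p) = ((ind X (r j) : ℤ) : ZMod p) := by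
          intro z hz
          rw [hXr (j + z) j]
          refine order_add_ker_eq hj (mem_ker.1 hz) ?_
          refine hi.trans ?_
          have h3 : p • (j + z) = p • j := by rw [smul_add, mem_ker.1 hz, add_zero]
          rw [← h3]
          exact addOrderOf_smul_dvd p
        rw [Finset.sum_congr rfl h2, Finset.sum_const, card_ker hpm, nsmul_eq_mul, CharP.cast_eq_zero, zero_mul]
      · refine Finset.sum_eq_zero fun j hj => ?_
        exact absurd ⟨j, (Finset.mem_filter.1 hj).2⟩ hne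
    show _ - _ = _
    rw [h1, sub_zero]
  -- `p`-regular elements
  have hVb : ∀ i z : ZMod m, ¬ p ∣ addOrderOf i → z ≠ 0 → p • z = 0 → V (r i) = ((ind X (r (i + z)) : ℤ) : ZMod p) := by
    intro i z hi hz0 hz
    obtain ⟨j, hj1, hj2⟩ : ∃ j : ZMod m, p • j = i ∧ addOrderOf j = addOrderOf i := by
      have hco : p.Coprime (addOrderOf i) := (Nat.Prime.coprime_iff_not_dvd hp.out).2 hi
      have hord : addOrderOf (p • i) = addOrderOf i := by
        rw [addOrderOf_nsmul i, Nat.Coprime.gcd_eq_one hco.symm, Nat.div_one]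
      obtain ⟨n, hn, hni⟩ := exists_nat_smul hord
      refine ⟨n • i, ?_, ?_⟩
      · rw [smul_comm]; exact hni
      · refine Nat.dvd_antisymm (addOrderOf_smul_dvd n) ?_
        conv_lhs => rw [← hni, smul_comm]
        exact addOrderOf_smul_dvd p
    have hj3 : ¬ p ∣ addOrderOf j := by rwa [hj2]
    have h1 : ((g (r i) : ℤ) : ZMod p) = ((ind X (r i) : ℤ) : ZMod p) - ((ind X (r (i + z)) : ℤ) : ZMod p) := by
      rw [hg2, ← hj1, sum_fiber_ker, ← Finset.add_sum_erase _ _ (mem_ker.2 (smul_zero p)), add_zero]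
      have h2 : ∀ w ∈ (ker m p).erase 0, ((ind X (r (j + w)) : ℤ) : ZMod p) =
          ((ind X (r (p • j + z)) : ℤ) : ZMod p) := by
        intro w hw
        rw [Finset.mem_erase] at hw
        rw [hXr (j + w) (p • j + z)]
        rw [order_add_ker hj3 hw.1 (mem_ker.1 hw.2), hj1, order_add_ker hi hz0 hz, hj2]
      rw [Finset.sum_congr rfl h2, Finset.sum_const, Finset.card_erase_of_mem (mem_ker.2 (smul_zero p)), card_ker hpm,
        nsmul_eq_mul, Nat.cast_sub hp.out.one_le, CharP.cast_eq_zero, hXr j (p • j) (by rw [hj1, hj2])]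
      push_cast
      ring
    show _ - _ = _
    rw [h1]
    ring
  have h01 : ∀ x, ((ind X x : ℤ) : ZMod p) = 1 ↔ x ∈ X := by
    intro x
    by_cases hx : x ∈ X
    · rw [ind_of_mem hx]; simp [hx]
    · rw [ind_of_not_mem hx]; simp [hx]
  refine ⟨{x | V x = 1}, hVfn.ss 1, ?_, ?_⟩
  · intro i z hz
    by_cases hz0 : z = 0
    · rw [hz0, add_zero]
    show V (r i) = 1 ↔ V (r (i + z)) = 1
    suffices V (r i) = V (r (i + z)) by rw [this]
    by_cases hi : p ∣ addOrderOf i
    · by_cases hi' : p ∣ addOrderOf (i + z)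
      · rw [hVa _ hi, hVa _ hi', hXr _ _ (order_add_ker_eq hi hz hi')]
      · rw [hVa _ hi, hVb _ (-z) hi' (neg_ne_zero.2 hz0) (by rw [smul_neg, hz, neg_zero]), add_neg_cancel_right]
    · rw [hVb _ z hi hz0 hz, hVa]
      rw [order_add_ker hi hz0 hz]
      exact dvd_mul_left _ _
  · intro i hi
    show V (r i) = 1 ↔ _
    rw [hVa i hi, h01]

end Cfsg.Agent.H386.Dih
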